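import Cfsg.Agent.H42.RepFusion

/-!
# A conjugacy functor together with a central functor (S2001, S2002)
-/

set_option autoImplicit false

namespace Cfsg.Agent.H42.CentralFunctor

open Subgroup Cfsg.Agent.Lib.GoldschmidtFusion Cfsg.Agent.H42.Tower Cfsg.Agent.H42.Chain
  Cfsg.Agent.H42.Control

open scoped commutatorElement

variable {G : Type*} [Group G] [Finite G] {p : ℕ} [hp : Fact p.Prime] {W V : Subgroup G → Subgroup G}

/-- A Sylow `p`-subgroup is well placed in itself. -/
theorem wellPlaced_self (P : Sylow p G) (hW : IsConjugacyFunctor p W) :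
    IsWellPlaced p W (P : Subgroup G) (P : Subgroup G) := by
  refine ⟨le_rfl, fun i => ?_⟩
  have hP : IsPGroup p (P : Subgroup G) := P.isPGroup'
  have h1 : (P : Subgroup G) ≤ (P : Subgroup G) ⊓
      normalizer ((functorTower W (P : Subgroup G) (P : Subgroup G) i : Subgroup G) : Set G) := by
    refine le_trans ?_ (tower_norm_le hW hP (P : Subgroup G) (Nat.zero_le i))
    exact le_inf le_rfl le_normalizer
  have h2 : (P : Subgroup G) ⊓
      normalizer ((functorTower W (P : Subgroup G) (P : Subgroup G) i : Subgroup G) : Set G) =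
      (P : Subgroup G) := le_antisymm inf_le_left h1
  rw [h2]
  intro h
  apply P.not_dvd_index
  refine h.trans ?_
  have h3 : (P : Subgroup G) ≤
      normalizer ((functorTower W (P : Subgroup G) (P : Subgroup G) i : Subgroup G) : Set G) :=
    h1.trans inf_le_right
  exact Subgroup.relIndex_dvd_index_of_le h3

/-- The fusion in `P` is generated by the normalizers of the well-placed subgroups containing `Z(P)`. -/
theorem gen_wellPlaced (P : Sylow p G) (hW : IsConjugacyFunctor p W) {A : Subgroup G}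
    (hA : A ≤ (P : Subgroup G)) {g : G} (hg : A.map (MulAut.conj g).toMonoidHom ≤ (P : Subgroup G)) :
    Gen (P : Subgroup G) (fun X => IsWellPlaced p W (P : Subgroup G) X ∧
      (P : Subgroup G) ⊓ centralizer ((P : Subgroup G) : Set G) ≤ X) A g := by
  refine Cfsg.Agent.H42.RepFusion.gen_of_conj_rep P _ (IsWellPlaced p W (P : Subgroup G))
    ⟨wellPlaced_self P hW, inf_le_left⟩ ?_ ?_ ?_ hA hg
  · intro B hB
    obtain ⟨k, hk⟩ := exists_wellPlaced P hW B hB
    exact ⟨k, hk.1, hk⟩
  · intro X _ hX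
    exact hX.2 0
  · intro X hX hR hc _
    refine ⟨hR, le_trans (le_inf ?_ inf_le_left) hc⟩
    exact inf_le_right.trans (centralizer_le (by
      intro x hx
      exact hX.le hx))

omit [Finite G] in
theorem map_conj_comm_inf {N : Subgroup G} {n : G} (hn : n ∈ N) (B : Subgroup G) :
    (⁅N ⊓ B, N ⊓ B⁆).map (MulAut.conj n).toMonoidHom =
      ⁅N ⊓ B.map (MulAut.conj n).toMonoidHom, N ⊓ B.map (MulAut.conj n).toMonoidHom⁆ := by
  rw [Subgroup.map_commutator, Subgroup.map_inf _ _ (MulAut.conj n).toMonoidHom (MulAut.conj n).injective,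
    map_conj_eq_of_mem hn]

omit [Finite G] hp in
theorem map_conj_centralizer (A : Subgroup G) (g : G) :
    (centralizer (A : Set G)).map (MulAut.conj g).toMonoidHom =
      centralizer ((A.map (MulAut.conj g).toMonoidHom : Subgroup G) : Set G) := by
  ext x
  rw [mem_map_conj, mem_centralizer_map_conj]

section Common

variable (P : Sylow p G) (hdiv : p ∣ Nat.card G)
  (hW : IsConjugacyFunctor p W) (hV : IsConjugacyFunctor p V)
  (hWZ : ∀ H : Subgroup G, IsPGroup p ↥H → H ⊓ centralizer ((H : Subgroup G) : Set G) ≤ W H)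
  (hVZ : ∀ H : Subgroup G, IsPGroup p ↥H → V H ≤ H ⊓ centralizer ((H : Subgroup G) : Set G))
  (hVmono : ∀ H K : Subgroup G, IsPGroup p ↥H → IsPGroup p ↥K → H ≠ ⊥ → K ≠ ⊥ →
    H ⊓ centralizer ((H : Subgroup G) : Set G) ≤ K ⊓ centralizer ((K : Subgroup G) : Set G) → V H ≤ V K)

include hdiv in
theorem sylow_ne_bot : (P : Subgroup G) ≠ ⊥ := by
  intro h
  have h1 := P.dvd_card_of_dvd_card hdiv
  rw [h, Subgroup.card_bot] at h1
  exact hp.out.one_lt.ne' (Nat.dvd_one.1 h1)

omit [Finite G] hp in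
/-- `Z(P) ≤ Z(Q)` for `Z(P) ≤ Q ≤ P`. -/
theorem center_le {Q : Subgroup G} (hQP : Q ≤ (P : Subgroup G))
    (hZQ : (P : Subgroup G) ⊓ centralizer ((P : Subgroup G) : Set G) ≤ Q) :
    (P : Subgroup G) ⊓ centralizer ((P : Subgroup G) : Set G) ≤ Q ⊓ centralizer (Q : Set G) :=
  le_inf hZQ (inf_le_right.trans (centralizer_le (by
    intro x hx
    exact hQP hx)))

include hdiv hVmono in
/-- `C(V Q) ≤ C(V P)` for `Z(P) ≤ Q ≤ P`. -/
theorem centralizer_V_le {Q : Subgroup G} (hQP : Q ≤ (P : Subgroup G))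
    (hZQ : (P : Subgroup G) ⊓ centralizer ((P : Subgroup G) : Set G) ≤ Q) :
    centralizer ((V Q : Subgroup G) : Set G) ≤ centralizer ((V (P : Subgroup G) : Subgroup G) : Set G) := by
  have hP : IsPGroup p (P : Subgroup G) := P.isPGroup'
  have hne := sylow_ne_bot P hdiv
  have hQne : Q ≠ ⊥ := by
    rintro rfl
    -- the centre of `P` is nontrivial
    have h1 : Nontrivial (P : Subgroup G) := (nontrivial_iff_ne_bot _).2 hne
    have h2 := hP.center_nontrivial
    obtain ⟨z, hz⟩ := exists_ne (1 : center (P : Subgroup G))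
    apply hz
    have h3 : ((z : (P : Subgroup G)) : G) ∈ (P : Subgroup G) ⊓ centralizer ((P : Subgroup G) : Set G) := by
      refine mem_inf.2 ⟨(z : (P : Subgroup G)).2, ?_⟩
      rw [mem_centralizer_iff]
      intro y hy
      have := mem_center_iff.1 z.2 ⟨y, hy⟩
      exact congrArg Subtype.val this
    have h4 := hZQ h3
    rw [mem_bot] at h4
    exact Subtype.ext (Subtype.ext h4)
  exact centralizer_le (by
    intro x hx
    exact hVmono _ _ hP (hP.to_le hQP) hne hQne (center_le P hQP hZQ) hx)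

end Common

/-- **S2001**. -/
theorem transfer_tower2 (P : Sylow p G) (hdiv : p ∣ Nat.card G)
    (hW : IsConjugacyFunctor p W) (hV : IsConjugacyFunctor p V)
    (hWZ : ∀ H : Subgroup G, IsPGroup p ↥H → H ⊓ centralizer ((H : Subgroup G) : Set G) ≤ W H)
    (hVmono : ∀ H K : Subgroup G, IsPGroup p ↥H → IsPGroup p ↥K → H ≠ ⊥ → K ≠ ⊥ →
      H ⊓ centralizer ((H : Subgroup G) : Set G) ≤ K ⊓ centralizer ((K : Subgroup G) : Set G) → V H ≤ V K)
    (hloc : ∀ H : Subgroup G, (P : Subgroup G) ⊓ centralizer (((P : Subgroup G) : Subgroup G) : Set G) ≤ H →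
      H ≤ (P : Subgroup G) → ∃ Q : Subgroup G, Q ≤ normalizer ((H : Subgroup G) : Set G) ∧ IsPGroup p ↥Q ∧
      ¬ p ∣ (Q).relIndex (normalizer ((H : Subgroup G) : Set G)) ∧
      ∀ x : G, x ∈ Q ⊓ ⁅normalizer ((H : Subgroup G) : Set G), normalizer ((H : Subgroup G) : Set G)⁆ ↔
        ∃ a ∈ Q ⊓ ⁅normalizer ((H : Subgroup G) : Set G) ⊓ normalizer ((W Q : Subgroup G) : Set G),
          normalizer ((H : Subgroup G) : Set G) ⊓ normalizer ((W Q : Subgroup G) : Set G)⁆,
        ∃ b ∈ Q ⊓ ⁅normalizer ((H : Subgroup G) : Set G) ⊓ centralizer ((V Q : Subgroup G) : Set G),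
          normalizer ((H : Subgroup G) : Set G) ⊓ centralizer ((V Q : Subgroup G) : Set G)⁆, x = a * b) :
    ∀ (n : ℕ) (T : Subgroup G), IsWellPlaced p W (P : Subgroup G) T →
      (P : Subgroup G) ⊓ centralizer ((P : Subgroup G) : Set G) ≤ T →
      Nat.card G - Nat.card ↥((P : Subgroup G) ⊓ normalizer (T : Set G)) ≤ n →
      (P : Subgroup G) ⊓ normalizer (T : Set G) ⊓ ⁅normalizer (T : Set G), normalizer (T : Set G)⁆ ≤
        ((P : Subgroup G) ⊓ ⁅normalizer ((W (P : Subgroup G) : Subgroup G) : Set G),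
          normalizer ((W (P : Subgroup G) : Subgroup G) : Set G)⁆) ⊔
        ((P : Subgroup G) ⊓ ⁅centralizer ((V (P : Subgroup G) : Subgroup G) : Set G),
          centralizer ((V (P : Subgroup G) : Subgroup G) : Set G)⁆) := by
  have hP : IsPGroup p (P : Subgroup G) := P.isPGroup'
  -- the local condition for `N_P(T)`
  have hloc' : ∀ T : Subgroup G, IsWellPlaced p W (P : Subgroup G) T →
      (P : Subgroup G) ⊓ centralizer ((P : Subgroup G) : Set G) ≤ T →
      (P : Subgroup G) ⊓ normalizer (T : Set G) ⊓ ⁅normalizer (T : Set G), normalizer (T : Set G)⁆ ≤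
        ((P : Subgroup G) ⊓ normalizer (T : Set G) ⊓
          ⁅normalizer ((W ((P : Subgroup G) ⊓ normalizer (T : Set G)) : Subgroup G) : Set G),
            normalizer ((W ((P : Subgroup G) ⊓ normalizer (T : Set G)) : Subgroup G) : Set G)⁆) ⊔
        ((P : Subgroup G) ⊓ ⁅centralizer ((V (P : Subgroup G) : Subgroup G) : Set G),
          centralizer ((V (P : Subgroup G) : Subgroup G) : Set G)⁆) := by
    intro T hTw hZT
    obtain ⟨Q, hQN, hQ, hQi, hQx⟩ := hloc T hZT hTw.1
    set N := normalizer (T : Set G) with hN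
    obtain ⟨n, hn, hnQ⟩ := exists_conj_sylow_in hQN (inf_le_right : (P : Subgroup G) ⊓ N ≤ N) hQ
      (hP.to_le inf_le_left) hQi (hTw.2 0)
    set R := (P : Subgroup G) ⊓ N with hR
    have hZR : (P : Subgroup G) ⊓ centralizer ((P : Subgroup G) : Set G) ≤ R :=
      le_inf inf_le_left (hZT.trans le_normalizer)
    intro x hx
    have h1 : n⁻¹ * x * n ∈ Q ⊓ ⁅N, N⁆ := by
      have h2 : R ⊓ ⁅N, N⁆ = (Q ⊓ ⁅N, N⁆).map (MulAut.conj n).toMonoidHom := by
        rw [Subgroup.map_inf _ _ (MulAut.conj n).toMonoidHom (MulAut.conj n).injective, hnQ,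
          Subgroup.map_commutator, map_conj_eq_of_mem hn]
      rw [h2, mem_map_conj] at hx
      exact hx
    obtain ⟨a, ha, b, hb, hab⟩ := (hQx _).1 h1
    have hxab : x = (n * a * n⁻¹) * (n * b * n⁻¹) := by
      have : x = n * (n⁻¹ * x * n) * n⁻¹ := by group
      rw [this, hab]; group
    rw [hxab]
    refine mul_mem (mem_sup_left ?_) (mem_sup_right ?_)
    · have h3 := conj_mem_map_conj ha n
      rw [Subgroup.map_inf _ _ (MulAut.conj n).toMonoidHom (MulAut.conj n).injective, hnQ,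
        map_conj_comm_inf hn, map_conj_normalizer, ← W_conj hW hQ, hnQ] at h3
      exact mem_inf.2 ⟨(mem_inf.1 h3).1, commutator_mono inf_le_right inf_le_right (mem_inf.1 h3).2⟩
    · have h3 := conj_mem_map_conj hb n
      rw [Subgroup.map_inf _ _ (MulAut.conj n).toMonoidHom (MulAut.conj n).injective, hnQ,
        map_conj_comm_inf hn, map_conj_centralizer, ← W_conj hV hQ, hnQ] at h3
      refine mem_inf.2 ⟨(inf_le_left : R ≤ _) (mem_inf.1 h3).1, ?_⟩
      have h4 := centralizer_V_le P hdiv hVmono (inf_le_left : R ≤ (P : Subgroup G)) hZR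
      exact commutator_mono (inf_le_right.trans h4) (inf_le_right.trans h4) (mem_inf.1 h3).2
  intro n
  induction n with
  | zero =>
    intro T hTw hZT hn
    have h1 : (P : Subgroup G) ⊓ normalizer (T : Set G) = ⊤ := by
      rw [← Subgroup.card_eq_iff_eq_top]
      have := Subgroup.card_le_card_group ((P : Subgroup G) ⊓ normalizer (T : Set G))
      omega
    have h2 : (P : Subgroup G) ⊓ normalizer (T : Set G) = (P : Subgroup G) := by
      rw [h1]; exact (top_le_iff.1 (h1 ▸ inf_le_left)).symm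
    have h3 := hloc' T hTw hZT
    rw [h2] at h3 ⊢
    exact h3
  | succ n ih =>
    intro T hTw hZT hn
    refine (hloc' T hTw hZT).trans (sup_le ?_ le_sup_right)
    set R := (P : Subgroup G) ⊓ normalizer (T : Set G) with hR
    have hRp : IsPGroup p R := hP.to_le inf_le_left
    have hZR : (P : Subgroup G) ⊓ centralizer ((P : Subgroup G) : Set G) ≤ R :=
      le_inf inf_le_left (hZT.trans le_normalizer)
    by_cases hRP : R = (P : Subgroup G)
    · rw [hRP]; exact le_sup_left
    · have hlt := lt_succ (p := p) hW hP hRP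
      have hcard : Nat.card R < Nat.card ↥((P : Subgroup G) ⊓ normalizer ((W R : Subgroup G) : Set G)) := by
        refine lt_of_le_of_ne (Subgroup.card_le_of_le hlt.le) ?_
        intro heq
        exact hlt.ne (Subgroup.eq_of_le_of_card_ge hlt.le heq.ge)
      have h1 := ih (W R) (wellPlaced_succ hW hP hTw)
        ((center_le P inf_le_left hZR).trans (hWZ R hRp)) (by
        have := Subgroup.card_le_card_group ((P : Subgroup G) ⊓ normalizer ((W R : Subgroup G) : Set G))
        omega)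
      exact le_trans (inf_le_inf_right _ hlt.le) h1

omit [Finite G] in
theorem le_normalizer_inf_commutator {P M : Subgroup G} (hPM : P ≤ M) :
    P ≤ normalizer ((P ⊓ ⁅M, M⁆ : Subgroup G) : Set G) := by
  intro s hs
  rw [mem_normalizer_iff_map_conj,
    Subgroup.map_inf _ _ (MulAut.conj s).toMonoidHom (MulAut.conj s).injective,
    Subgroup.map_commutator, map_conj_eq_of_mem hs, map_conj_eq_of_mem (hPM hs)]

omit [Finite G] in
/-- The elements `a⁻¹ a^g` along a chain of fusion steps. -/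
theorem gen_comm_mem {P Z : Subgroup G} {F : Subgroup G → Prop}
    (hF : ∀ X : Subgroup G, X ≤ P → F X → P ⊓ normalizer (X : Set G) ⊓
      ⁅normalizer (X : Set G), normalizer (X : Set G)⁆ ≤ Z) {A : Subgroup G} {g : G} (h : Gen P F A g) :
    ∀ a ∈ A, a⁻¹ * (g * a * g⁻¹) ∈ Z := by
  induction h with
  | @cent A c hA hc =>
    intro a ha
    rw [conj_eq_of_mem_centralizer hc ha, inv_mul_cancel]
    exact one_mem _
  | @base A X g hX hFX hAX hg =>
    intro a ha
    apply hF X hX hFX
    have haX : a ∈ X := hAX ha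
    have haN : a ∈ normalizer (X : Set G) := le_normalizer haX
    have hconj : g * a * g⁻¹ ∈ X := (mem_normalizer_iff.1 hg a).1 haX
    refine mem_inf.2 ⟨mem_inf.2 ⟨mul_mem (inv_mem (hX haX)) (hX hconj),
      mul_mem (inv_mem haN) (le_normalizer hconj)⟩, ?_⟩
    have h4 : a⁻¹ * (g * a * g⁻¹) = ⁅a⁻¹, g⁆ := by
      rw [commutatorElement_def]; group
    rw [h4]
    exact commutator_mem_commutator (inv_mem haN) hg
  | @mul A g h _ _ ih1 ih2 =>
    intro a ha
    have h1 := ih1 a ha
    have h2 := ih2 (g * a * g⁻¹) (conj_mem_map_conj ha g)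
    have h3 : a⁻¹ * (h * g * a * (h * g)⁻¹) =
        (a⁻¹ * (g * a * g⁻¹)) * ((g * a * g⁻¹)⁻¹ * (h * (g * a * g⁻¹) * h⁻¹)) := by group
    rw [h3]
    exact mul_mem h1 h2

theorem inf_commutator_le_of_gen (P : Sylow p G) {Z : Subgroup G} {F : Subgroup G → Prop}
    (hF : ∀ X : Subgroup G, X ≤ (P : Subgroup G) → F X → (P : Subgroup G) ⊓ normalizer (X : Set G) ⊓
      ⁅normalizer (X : Set G), normalizer (X : Set G)⁆ ≤ Z)
    (hgen : ∀ (A : Subgroup G) (g : G), A ≤ (P : Subgroup G) →
      A.map (MulAut.conj g).toMonoidHom ≤ (P : Subgroup G) → Gen (P : Subgroup G) F A g) :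
    (P : Subgroup G) ⊓ commutator G ≤ Z := by
  apply inf_commutator_le P
  intro a ha g hag
  have h1 := hgen (zpowers a) g⁻¹ (by rwa [zpowers_le]) (by
    rw [MonoidHom.map_zpowers, zpowers_le]
    simpa using hag)
  have h2 := gen_comm_mem hF h1 a (mem_zpowers a)
  simpa using h2

/-- **S2001**. -/
theorem transfer_main (P : Sylow p G) (hdiv : p ∣ Nat.card G)
    (hW : IsConjugacyFunctor p W) (hV : IsConjugacyFunctor p V)
    (hWZ : ∀ H : Subgroup G, IsPGroup p ↥H → H ⊓ centralizer ((H : Subgroup G) : Set G) ≤ W H)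
    (hVZ : ∀ H : Subgroup G, IsPGroup p ↥H → V H ≤ H ⊓ centralizer ((H : Subgroup G) : Set G))
    (hVmono : ∀ H K : Subgroup G, IsPGroup p ↥H → IsPGroup p ↥K → H ≠ ⊥ → K ≠ ⊥ →
      H ⊓ centralizer ((H : Subgroup G) : Set G) ≤ K ⊓ centralizer ((K : Subgroup G) : Set G) → V H ≤ V K)
    (hloc : ∀ H : Subgroup G, (P : Subgroup G) ⊓ centralizer (((P : Subgroup G) : Subgroup G) : Set G) ≤ H →
      H ≤ (P : Subgroup G) → ∃ Q : Subgroup G, Q ≤ normalizer ((H : Subgroup G) : Set G) ∧ IsPGroup p ↥Q ∧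
      ¬ p ∣ (Q).relIndex (normalizer ((H : Subgroup G) : Set G)) ∧
      ∀ x : G, x ∈ Q ⊓ ⁅normalizer ((H : Subgroup G) : Set G), normalizer ((H : Subgroup G) : Set G)⁆ ↔
        ∃ a ∈ Q ⊓ ⁅normalizer ((H : Subgroup G) : Set G) ⊓ normalizer ((W Q : Subgroup G) : Set G),
          normalizer ((H : Subgroup G) : Set G) ⊓ normalizer ((W Q : Subgroup G) : Set G)⁆,
        ∃ b ∈ Q ⊓ ⁅normalizer ((H : Subgroup G) : Set G) ⊓ centralizer ((V Q : Subgroup G) : Set G),
          normalizer ((H : Subgroup G) : Set G) ⊓ centralizer ((V Q : Subgroup G) : Set G)⁆, x = a * b) :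
    ∀ x : G, x ∈ (P : Subgroup G) ⊓ commutator G ↔
      ∃ a ∈ (P : Subgroup G) ⊓ ⁅normalizer ((W (P : Subgroup G) : Subgroup G) : Set G),
          normalizer ((W (P : Subgroup G) : Subgroup G) : Set G)⁆,
        ∃ b ∈ (P : Subgroup G) ⊓ ⁅centralizer ((V (P : Subgroup G) : Subgroup G) : Set G),
          centralizer ((V (P : Subgroup G) : Subgroup G) : Set G)⁆, x = a * b := by
  have hP : IsPGroup p (P : Subgroup G) := P.isPGroup'
  intro x
  constructor
  · intro hx
    have h1 := inf_commutator_le_of_gen P (F := fun X => IsWellPlaced p W (P : Subgroup G) X ∧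
      (P : Subgroup G) ⊓ centralizer ((P : Subgroup G) : Set G) ≤ X) (fun X _ hX =>
        transfer_tower2 P hdiv hW hV hWZ hVmono hloc _ X hX.1 hX.2 le_rfl)
        (fun A g hA hg => gen_wellPlaced P hW hA hg) hx
    have hPC : (P : Subgroup G) ≤ centralizer ((V (P : Subgroup G) : Subgroup G) : Set G) := by
      rw [Subgroup.le_centralizer_iff]
      exact (hVZ _ hP).trans inf_le_right
    have h2 : (P : Subgroup G) ⊓ ⁅normalizer ((W (P : Subgroup G) : Subgroup G) : Set G),
          normalizer ((W (P : Subgroup G) : Subgroup G) : Set G)⁆ ≤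
        normalizer (((P : Subgroup G) ⊓ ⁅centralizer ((V (P : Subgroup G) : Subgroup G) : Set G),
          centralizer ((V (P : Subgroup G) : Subgroup G) : Set G)⁆ : Subgroup G) : Set G) :=
      inf_le_left.trans (le_normalizer_inf_commutator hPC)
    rw [← SetLike.mem_coe, coe_mul_of_left_le_normalizer_right _ _ h2] at h1
    obtain ⟨a, ha, b, hb, hab⟩ := Set.mem_mul.1 h1
    exact ⟨a, ha, b, hb, hab.symm⟩
  · rintro ⟨a, ha, b, hb, rfl⟩
    refine mem_inf.2 ⟨mul_mem (mem_inf.1 ha).1 (mem_inf.1 hb).1, ?_⟩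
    rw [commutator_def]
    exact mul_mem (commutator_mono le_top le_top (mem_inf.1 ha).2)
      (commutator_mono le_top le_top (mem_inf.1 hb).2)

end Cfsg.Agent.H42.CentralFunctor
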